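import Cfsg.Agent.H93.CJ.Pi
import Cfsg.Agent.H93.CJ.Torus
import Cfsg.Agent.ETable.OrthBase
import Cfsg.Agent.H890.SpParity

/-!
# The row of the orthogonal groups of minus type (for S4792)
-/

set_option autoImplicit false

namespace Cfsg.Agent.H93.CJ

open Module QuadraticMap Cfsg Cfsg.Agent.H430.Conj
open Cfsg.Agent.LieClassical.OrthCore Cfsg.Agent.LieClassical.OrthTrans Cfsg.Agent.LieClassical.OrthForms
open Cfsg.Agent.LieClassical.OrthFinite
open Cfsg.Agent.H122.OrthWt Cfsg.Agent.H122.OrthIso Cfsg.Agent.H122.OrthRep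
open Cfsg.Agent.H182.Sign Cfsg.Agent.H890.SpParity

universe v

section swap

variable {F L : Type*} [Field F] [Field L] [Algebra F L] [FiniteDimensional F L]

/-- The swap case does not occur in `E`. -/
theorem not_swap {Q : QuadraticForm F L} (hQ : Nondeg Q) (hd : Even (finrank F L)) {c : (L × F × F) ≃ₗ[F] (L × F × F)}
    (hc : c ∈ E (HQ Q)) {b : F} (hb : b ≠ 0) {σ : L}
    (h : ∀ (w : L) (x z : F), c (w, x, z) = (σ * w, b⁻¹ * z, b * x)) : False := by
  have h1 := even_E (nondeg_HQ Q hQ) hc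
  have hV : finrank F (L × F × F) = finrank F L + 2 := by
    rw [finrank_prod, finrank_prod, finrank_self]
  have hmem : ∀ v : L × F × F, v ∈ fix c ↔ σ * v.1 = v.1 ∧ v.2.2 = b * v.2.1 := by
    rintro ⟨w, x, z⟩
    rw [mem_fix, h, Prod.ext_iff, Prod.ext_iff]
    show σ * w = w ∧ b⁻¹ * z = x ∧ b * x = z ↔ σ * w = w ∧ z = b * x
    constructor
    · rintro ⟨h1, -, h2⟩
      exact ⟨h1, h2.symm⟩
    · rintro ⟨h1, rfl⟩
      refine ⟨h1, ?_, rfl⟩
      rw [← mul_assoc, inv_mul_cancel₀ hb, one_mul]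
  by_cases hσ : σ = 1
  · let e : fix c ≃ₗ[F] L × F :=
      { toFun := fun v => (v.1.1, v.1.2.1)
        invFun := fun w => ⟨(w.1, w.2, b * w.2), (hmem _).2 ⟨by rw [hσ, one_mul], rfl⟩⟩
        map_add' := fun _ _ => rfl
        map_smul' := fun _ _ => rfl
        left_inv := fun v => by
          apply Subtype.ext
          have := ((hmem _).1 v.2).2
          exact Prod.ext rfl (Prod.ext rfl this.symm)
        right_inv := fun _ => rfl }
    rw [e.finrank_eq, finrank_prod, finrank_self, hV] at h1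
    obtain ⟨r, hr⟩ := hd
    obtain ⟨s, hs⟩ := h1
    omega
  · let e : fix c ≃ₗ[F] F :=
      { toFun := fun v => v.1.2.1
        invFun := fun w => ⟨(0, w, b * w), (hmem _).2 ⟨by rw [mul_zero], rfl⟩⟩
        map_add' := fun _ _ => rfl
        map_smul' := fun _ _ => rfl
        left_inv := fun v => by
          apply Subtype.ext
          obtain ⟨h2, h3⟩ := (hmem _).1 v.2
          have h4 : (σ - 1) * v.1.1 = 0 := by
            rw [sub_mul, h2, one_mul, sub_self]
          have h5 := (mul_eq_zero.1 h4).resolve_left (sub_ne_zero.2 hσ)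
          exact Prod.ext h5.symm (Prod.ext rfl h3.symm)
        right_inv := fun _ => rfl }
    rw [e.finrank_eq, finrank_self, hV] at h1
    obtain ⟨r, hr⟩ := hd
    obtain ⟨s, hs⟩ := h1
    omega

end swap

/-- **Row `PΩ⁻`**, up to isomorphism -/
theorem row_ominus_equiv {F : Type} [Field F] [Fintype F] {m : ℕ} (hm : 4 ≤ m) (a b : F)
    (hab : ∀ z₁ z₂ : F, z₁ ^ 2 + a * z₁ * z₂ + b * z₂ ^ 2 = 0 → z₁ = 0 ∧ z₂ = 0)
    {S : Type v} [Group S] (i : POmega F (quadFormMinus (m - 1) F a b) ≃* S) : Row S := by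
  obtain ⟨k, rfl⟩ : ∃ k, m = k + 2 := ⟨m - 2, by omega⟩
  rw [show k + 2 - 1 = k + 1 by omega, ← coe_minusForm] at i
  obtain ⟨L, _, _, _, Q, u, hs, hu0, hu, hcomm, hns, hval⟩ := exists_torus F (k := k + 1) (by omega)
  have hfin : FiniteDimensional F L := Module.Finite.of_finite
  have hd : finrank F L = 2 * (k + 1) := hs.dim
  have hQ := hs.nondeg
  have hV : finrank F (L × F × F) = finrank F L + 2 := by
    rw [finrank_prod, finrank_prod, finrank_self]
  have hGH : Good (HQ Q) := good_of_finite (nondeg_HQ Q hQ) (by omega)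
  have hG : Good Q := good_of_finite hQ (by omega)
  have hRn : Nondeg (minusForm (k + 1) F a b) := nondeg_minusForm (k + 1) F a b hab
  have hRd : finrank F ((Fin (k + 1) ⊕ Fin (k + 1)) ⊕ Fin 2 → F) = 2 * (k + 2) := by
    rw [finrank_fintype_fun_eq_card]
    simp only [Fintype.card_sum, Fintype.card_fin]
    omega
  obtain ⟨e, he⟩ := (isoQ_minus k a b).trans
    (show IsoQ (HQ (minusForm k F a b)) (HQ Q) from IsoQ.hq ((sg_minusForm k hab).exists_equiv hs))
  obtain ⟨π, hπ, hker⟩ := exists_pi (R := minusForm (k + 1) F a b) (Q := HQ Q) (c := 1)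
    (good_of_finite hRn (by omega)) (good_of_finite (nondeg_smul hRn one_ne_zero) (by omega)) e one_ne_zero
    (fun v => by rw [he, one_mul]) hGH i
  refine row_orth hQ hGH (transN_of_good Q hG) π hπ ?_
  intro l hl
  set g0 : L ≃ₗ[F] L := mulL F u hu0 with hg0
  have hg0O : g0 ∈ O Q := mem_O.2 fun v => hu v
  have hgE : ext g0 * ext g0 ∈ E (HQ Q) := ETable.Orth.sq_mem_E hGH (ext_mem_O Q hg0O)
  refine ⟨⟨_, hgE⟩, l, hl, rfl, ?_⟩
  intro c hcx
  obtain ⟨ζ, hζ⟩ := comm_scalar hker hcx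
  set τ : L := u * u with hτ
  have hx : ∀ (w : L) (p q : F), (ext g0 * ext g0 : (L × F × F) ≃ₗ[F] (L × F × F)) (w, p, q) = (τ * w, p, q) := by
    intro w p q
    show (u * (u * w), p, q) = _
    rw [hτ, mul_assoc]
  have hζ' : ∀ (w : L) (p q : F), (c : (L × F × F) ≃ₗ[F] (L × F × F)) (τ * w, p, q) =
      ζ • (τ * ((c : (L × F × F) ≃ₗ[F] (L × F × F)) (w, p, q)).1,
        ((c : (L × F × F) ≃ₗ[F] (L × F × F)) (w, p, q)).2) := by
    intro w p q
    have h1 := hζ (w, p, q)
    change (c : (L × F × F) ≃ₗ[F] (L × F × F)) ((ext g0 * ext g0 : (L × F × F) ≃ₗ[F] (L × F × F)) (w, p, q)) =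
      ζ • (ext g0 * ext g0 : (L × F × F) ≃ₗ[F] (L × F × F)) ((c : (L × F × F) ≃ₗ[F] (L × F × F)) (w, p, q)) at h1
    rw [hx] at h1
    rw [h1]
    congr 1
    exact hx _ _ _
  set c1 : (L × F × F) ≃ₗ[F] (L × F × F) := (c : (L × F × F) ≃ₗ[F] (L × F × F)) with hc1
  have hc1O : c1 ∈ O (HQ Q) := E_le_O c.2
  have hτ1 : τ ≠ 1 := by
    have := hns 1
    rwa [map_one] at this
  -- the first component of `c (0, p, q)` vanishes
  have hfst : ∀ p q : F, (c1 (0, p, q)).1 = 0 := by
    intro p q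
    have h1 := congrArg Prod.fst (hζ' 0 p q)
    rw [mul_zero] at h1
    change (c1 (0, p, q)).1 = ζ • (τ * (c1 (0, p, q)).1) at h1
    by_contra h0
    rw [Algebra.smul_def, ← mul_assoc] at h1
    have h2 : algebraMap F L ζ * τ = 1 := by
      apply mul_right_cancel₀ h0
      rw [← h1, one_mul]
    have h3 : ζ ≠ 0 := by
      rintro rfl
      rw [map_zero, zero_mul] at h2
      exact zero_ne_one h2
    apply hns ζ⁻¹
    rw [map_inv₀]
    exact eq_inv_of_mul_eq_one_right h2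
  have hζ1 : ζ = 1 := by
    have h1 := congrArg Prod.snd (hζ' 0 1 0)
    rw [mul_zero] at h1
    change (c1 (0, 1, 0)).2 = ζ • (c1 (0, 1, 0)).2 at h1
    have h2 : (c1 (0, 1, 0)).2 ≠ 0 := by
      intro h0
      have h3 : c1 (0, 1, 0) = 0 := Prod.ext (hfst 1 0) h0
      rw [LinearEquiv.map_eq_zero_iff] at h3
      exact one_ne_zero (congrArg (fun v : L × F × F => v.2.1) h3)
    have h3 : (1 - ζ) • (c1 (0, 1, 0)).2 = 0 := by
      rw [sub_smul, one_smul, ← h1, sub_self]
    rcases smul_eq_zero.1 h3 with h4 | h4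
    · exact (sub_eq_zero.1 h4).symm
    · exact absurd h4 h2
  subst hζ1
  simp only [one_smul] at hζ'
  -- `c` commutes with the multiplication by `τ` on `L` and maps `L` to `L`
  have hsnd : ∀ w : L, (c1 (w, 0, 0)).2 = 0 := by
    intro w
    have h1 : ∀ w, (c1 ((τ - 1) * w, 0, 0)).2 = 0 := by
      intro w
      have h2 : (((τ - 1) * w, 0, 0) : L × F × F) = (τ * w, 0, 0) - (w, 0, 0) := by
        ext <;> simp [sub_mul]
      rw [h2, map_sub, hζ']
      exact sub_self _
    have h3 := h1 ((τ - 1)⁻¹ * w)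
    rwa [← mul_assoc, mul_inv_cancel₀ (sub_ne_zero.2 hτ1), one_mul] at h3
  obtain ⟨σ, hσ⟩ := hcomm ((LinearMap.fst F L (F × F)).comp (c1.toLinearMap.comp (LinearMap.inl F L (F × F))))
    (fun v => congrArg Prod.fst (hζ' v 0 0))
  have hL : ∀ w : L, c1 (w, 0, 0) = (σ * w, 0, 0) := fun w => Prod.ext (hσ w) (hsnd w)
  have hdec : ∀ (w : L) (p q : F), c1 (w, p, q) = (σ * w, p • (c1 (0, 1, 0)).2 + q • (c1 (0, 0, 1)).2) := by
    intro w p q
    have h1 : ((w, p, q) : L × F × F) = (w, 0, 0) + p • (0, 1, 0) + q • (0, 0, 1) := by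
      ext <;> simp
    rw [h1, map_add, map_add, map_smul, map_smul, hL]
    ext
    · simp [hfst]
    · simp
    · simp
  obtain ⟨⟨p1, q1⟩, h10⟩ : ∃ z, z = (c1 (0, 1, 0)).2 := ⟨_, rfl⟩
  obtain ⟨⟨p2, q2⟩, h01⟩ : ∃ z, z = (c1 (0, 0, 1)).2 := ⟨_, rfl⟩
  have hc10 : c1 (0, 1, 0) = (0, p1, q1) := Prod.ext (hfst 1 0) h10.symm
  have hc01 : c1 (0, 0, 1) = (0, p2, q2) := Prod.ext (hfst 0 1) h01.symm
  have hpq1 : p1 * q1 = 0 := by
    have := mem_O.1 hc1O (0, 1, 0)
    rw [hc10, HQ_apply, HQ_apply] at this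
    simpa using this
  have hpq2 : p2 * q2 = 0 := by
    have := mem_O.1 hc1O (0, 0, 1)
    rw [hc01, HQ_apply, HQ_apply] at this
    simpa using this
  have hpair : p1 * q2 + p2 * q1 = 1 := by
    have := polar_map hc1O (0, 1, 0) (0, 0, 1)
    rw [hc10, hc01, polar_HQ, polar_HQ] at this
    simpa using this
  rcases mul_eq_zero.1 hpq1 with hp1 | hq1
  · -- the swap case
    exfalso
    rw [hp1, zero_mul, zero_add] at hpair
    have hq1 : q1 ≠ 0 := by
      rintro rfl
      rw [mul_zero] at hpair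
      exact zero_ne_one hpair
    have hp2 : p2 ≠ 0 := by
      rintro rfl
      rw [zero_mul] at hpair
      exact zero_ne_one hpair
    have hq2 := (mul_eq_zero.1 hpq2).resolve_left hp2
    refine not_swap (c := c1) hQ ⟨k + 1, by omega⟩ c.2 hq1 (σ := σ) ?_
    intro w x z
    rw [hdec, ← h10, ← h01, hp1, hq2]
    ext
    · rfl
    · show x * 0 + z * p2 = q1⁻¹ * z
      rw [mul_zero, zero_add, eq_inv_of_mul_eq_one_left hpair, mul_comm]
    · show x * q1 + z * 0 = q1 * x
      rw [mul_zero, add_zero, mul_comm]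
  · rw [hq1, mul_zero, add_zero] at hpair
    have hp1 : p1 ≠ 0 := by
      rintro rfl
      rw [zero_mul] at hpair
      exact zero_ne_one hpair
    have hq2 : q2 ≠ 0 := by
      rintro rfl
      rw [mul_zero] at hpair
      exact zero_ne_one hpair
    have hp2 := (mul_eq_zero.1 hpq2).resolve_right hq2
    have he0 : c1 (e0 F L) = p1 • e0 F L := by
      rw [show c1 (e0 F L) = c1 (0, 1, 0) from rfl, hc10, hq1]
      ext <;> simp
    obtain ⟨s, hsO, y, hsy, hconj⟩ := exists_decomp Q hc1O hp1 he0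
    have hs' : ∀ w, s w = σ * w := by
      intro w
      have h1 := hsy w 0 0
      rw [hL, sg_apply] at h1
      have h2 := congrArg Prod.fst h1
      simpa using h2.symm
    refine ⟨p1, hp1, s, hsO, fun w => Subtype.ext (hconj w), ?_⟩
    intro hfix
    have hσp : σ = algebraMap F L p1 := by
      rw [hs', inv_smul_eq_iff₀ hp1, Algebra.smul_def] at hfix
      exact mul_right_cancel₀ hl hfix
    have hp11 : p1 * p1 = 1 := by
      obtain ⟨v, -, hv⟩ := hval 1
      have h1 := mem_O.1 hsO v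
      rw [hs', hσp, ← Algebra.smul_def, QuadraticMap.map_smul, hv, smul_eq_mul, mul_one] at h1
      exact h1
    refine ⟨c, ?_, 0, polar_zero_right _ _, ?_⟩
    · rw [hker]
      refine ⟨p1, ?_⟩
      rintro ⟨w, x, z⟩
      show c1 (w, x, z) = _
      rw [hdec, ← h10, ← h01, hq1, hp2, hσp, ← Algebra.smul_def]
      have hq2' : q2 = p1 := by
        rw [eq_inv_of_mul_eq_one_right hpair]
        exact (eq_inv_of_mul_eq_one_right hp11).symm
      rw [hq2']
      ext
      · rfl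
      · show x * p1 + z * 0 = p1 * x
        rw [mul_zero, add_zero, mul_comm]
      · show x * 0 + z * p1 = p1 * z
        rw [mul_zero, zero_add, mul_comm]
    · have : sE Q (0 : L) = 1 := by
        have h1 := sE_add Q 0 0
        rw [add_zero] at h1
        exact (left_eq_mul.1 h1)
      rw [this, mul_one]

/-- **Row `PΩ⁻_{2m}(q)`, `m ≥ 4`** (S4792) -/
theorem row_ominus {F : Type} [Field F] [Fintype F] {m : ℕ} (hm : 4 ≤ m) (a b : F)
    (hab : ∀ z₁ z₂ : F, z₁ ^ 2 + a * z₁ * z₂ + b * z₂ ^ 2 = 0 → z₁ = 0 ∧ z₂ = 0) :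
    Row (POmega F (quadFormMinus (m - 1) F a b)) :=
  row_ominus_equiv hm a b hab (MulEquiv.refl _)

/-- **Row `PΩ⁻`** (S4792) -/
theorem row_of_isPOmegaMinus {S : Type v} [Group S] (h : IsPOmegaMinus S) : Row S := by
  obtain ⟨F, _, _, m, a, b, hm, hab, ⟨e⟩⟩ := h
  exact row_ominus_equiv hm a b hab e.symm

end Cfsg.Agent.H93.CJ
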